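import Cfsg.Agent.KnownB.Proj.Symp.Aut
import Cfsg.Agent.KnownB.Proj.Symp.Basis
import Cfsg.Agent.KnownB.Proj.GroupTwist

/-! Multipliers, scalars, Lang's theorem for similarities, and the twist of a field automorphism. -/

set_option autoImplicit false

namespace Cfsg.Agent.KnownB.Proj.Symp

open Matrix
open Cfsg.Agent.KnownB.AutPSL (nrm fixSub mapGL nrm_comp)

universe u v

variable {m : ℕ} {F : Type u} [Field F]

local notation "Vm" => (Fin m ⊕ Fin m → F)
local notation "Mm" => Matrix (Fin m ⊕ Fin m) (Fin m ⊕ Fin m) F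
local notation "GLm" => Matrix.GeneralLinearGroup (Fin m ⊕ Fin m) F
local notation "Spm" => Matrix.symplecticGroup (Fin m) F
local notation "B" => Cfsg.sympForm m F

theorem exists_B_one' (hm : 1 ≤ m) : ∃ u v : Vm, B u v = 1 := by
  obtain ⟨x, hx⟩ := exists_B_one (m := m) (F := F) (v := Pi.single (Sum.inl ⟨0, hm⟩) 1)
    (fun h0 => by simpa using congrFun h0 (Sum.inl ⟨0, hm⟩))
  exact ⟨_, _, hx⟩

theorem hasMult_unique (hm : 1 ≤ m) {g : GLm} {c d : Fˣ} (hc : HasMult g c) (hd : HasMult g d) :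
    c = d := by
  obtain ⟨u, v, huv⟩ := exists_B_one' (F := F) hm
  have h := (hc u v).symm.trans (hd u v)
  rw [huv, mul_one, mul_one] at h
  exact Units.ext h

/-- The multiplier. -/
noncomputable def mult (hm : 1 ≤ m) : Cfsg.GSp m F →* Fˣ where
  toFun g := g.2.choose
  map_one' := hasMult_unique hm (1 : Cfsg.GSp m F).2.choose_spec fun u v => by simp
  map_mul' g h := hasMult_unique hm (g * h).2.choose_spec fun u v => by
    show B (((g.1 * h.1 : GLm) : Mm) *ᵥ u) (((g.1 * h.1 : GLm) : Mm) *ᵥ v) = _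
    have hg : HasMult g.1 g.2.choose := g.2.choose_spec
    have hh : HasMult h.1 h.2.choose := h.2.choose_spec
    generalize g.2.choose = a at hg
    generalize h.2.choose = b at hh
    simp only [Units.val_mul, ← Matrix.mulVec_mulVec, hg _ _, hh _ _, mul_assoc]

theorem hasMult_mult (hm : 1 ≤ m) (g : Cfsg.GSp m F) : HasMult g.1 (mult hm g) := g.2.choose_spec

theorem mult_eq (hm : 1 ≤ m) (g : Cfsg.GSp m F) {c : Fˣ} (h : HasMult g.1 c) : mult hm g = c :=
  hasMult_unique hm (hasMult_mult hm g) h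

theorem smulMat_mulVec (c : F) (x : Vm) : Matrix.scalar (Fin m ⊕ Fin m) c *ᵥ x = c • x := by
  funext i
  simp [Matrix.scalar_apply, Matrix.mulVec_diagonal]

theorem B_mat_ext (M : Mm) (f : Vm →ₗ[F] Vm →ₗ[F] F)
    (h : ∀ i j, B (M *ᵥ Pi.single i 1) (M *ᵥ Pi.single j 1) = f (Pi.single i 1) (Pi.single j 1))
    (x y : Vm) : B (M *ᵥ x) (M *ᵥ y) = f x y := by
  have : (Forms.sympB m F).compl₁₂ (Matrix.mulVecLin M) (Matrix.mulVecLin M) = f :=
    LinearMap.ext_basis (Pi.basisFun F _) (Pi.basisFun F _) fun i j => by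
      simpa [sB] using h i j
  rw [← this]
  simp [sB]

theorem B_comp_hom {K : Type*} [Field K] (ι : K →+* F) (u v : Fin m ⊕ Fin m → K) :
    B (⇑ι ∘ u) (⇑ι ∘ v) = ι (Cfsg.sympForm m K u v) := by
  simp [Forms.sympForm_eq, map_sum]

variable (m F) in
/-- Scalar similarities. -/
def sc : Fˣ →* Cfsg.GSp m F :=
  (Units.map (Matrix.scalar (Fin m ⊕ Fin m) : F →+* Mm).toMonoidHom).codRestrict _ fun u =>
    ⟨u * u, fun x y => by
      show B (Matrix.scalar _ (u : F) *ᵥ x) (Matrix.scalar _ (u : F) *ᵥ y) = _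
      rw [smulMat_mulVec, smulMat_mulVec, B_smul_left, B_smul_right, Units.val_mul]
      ring⟩

theorem sc_mulVec (u : Fˣ) (x : Vm) : ((sc m F u).1 : Mm) *ᵥ x = (u : F) • x := smulMat_mulVec _ x

theorem mult_sc (hm : 1 ≤ m) (u : Fˣ) : mult hm (sc m F u) = u ^ 2 :=
  mult_eq hm _ fun x y => by
    rw [sc_mulVec, sc_mulVec, B_smul_left, B_smul_right, Units.val_pow_eq_pow_val]
    ring

theorem sc_comm (u : Fˣ) (x : Cfsg.GSp m F) : Commute (sc m F u) x :=
  Subtype.ext (Units.ext (Forms.matrix_ext_mulVec fun y => by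
    show (((sc m F u).1 : Mm) * (x.1 : Mm)) *ᵥ y = ((x.1 : Mm) * ((sc m F u).1 : Mm)) *ᵥ y
    rw [← Matrix.mulVec_mulVec, ← Matrix.mulVec_mulVec, sc_mulVec, sc_mulVec, Matrix.mulVec_smul]))

theorem gsp_ext {g h : Cfsg.GSp m F} (e : ∀ x, (g.1 : Mm) *ᵥ x = (h.1 : Mm) *ᵥ x) : g = h :=
  Subtype.ext (Units.ext (Forms.matrix_ext_mulVec e))

theorem sc_inj (hm : 1 ≤ m) : Function.Injective (sc m F) := by
  intro a b h
  have h1 := congrArg (fun g : Cfsg.GSp m F => ((g.1 : Mm) *ᵥ (Pi.single (Sum.inl ⟨0, hm⟩) 1))) h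
  simp only [sc_mulVec] at h1
  exact Units.ext (by simpa using congrFun h1 (Sum.inl ⟨0, hm⟩))

/-- A similarity fixing every line is scalar. -/
theorem scalar_of_lines (hm : 1 ≤ m) (M : Mm) {μ : F} (hμ : μ ≠ 0)
    (hM : ∀ u v, B (M *ᵥ u) (M *ᵥ v) = μ * B u v) (hl : ∀ v, v ≠ 0 → ∃ k : F, M *ᵥ v = k • v) :
    ∃ k : F, k ≠ 0 ∧ ∀ v, M *ᵥ v = k • v := by
  choose! k hk using hl
  have hrec : ∀ u w, B u w ≠ 0 → k u * k w = μ := by
    intro u w h
    have hu : u ≠ 0 := fun h0 => h (by simp [h0, B_zero_left])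
    have hw : w ≠ 0 := fun h0 => h (by simp [h0, B_zero_right])
    have h1 := hM u w
    rw [hk u hu, hk w hw, B_smul_left, B_smul_right, ← mul_assoc] at h1
    exact mul_right_cancel₀ h h1
  obtain ⟨a₀, ha₀⟩ : ∃ a : Vm, a ≠ 0 :=
    ⟨Pi.single (Sum.inl ⟨0, hm⟩) 1, fun h0 => by simpa using congrFun h0 (Sum.inl ⟨0, hm⟩)⟩
  refine ⟨k a₀, ?_, fun v => ?_⟩
  · obtain ⟨w, hw, -⟩ := exists_common ha₀ ha₀
    exact left_ne_zero_of_mul ((hrec a₀ w hw).symm ▸ hμ)
  · by_cases hv : v = 0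
    · simp [hv]
    rw [hk v hv]
    obtain ⟨w, h1, h2⟩ := exists_common hv ha₀
    congr 1
    have e := (hrec v w h1).trans (hrec a₀ w h2).symm
    exact mul_right_cancel₀ (right_ne_zero_of_mul ((hrec v w h1).symm ▸ hμ)) e

theorem center_scalar (hm : 1 ≤ m) {z : Spm} (hz : z ∈ Subgroup.center Spm) :
    ∃ k : F, k ≠ 0 ∧ ∀ v, z.1 *ᵥ v = k • v := by
  refine scalar_of_lines hm z.1 one_ne_zero (fun u v => (sp_B z u v).trans (one_mul _).symm)
    fun x hx => ?_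
  have h := T_conj z x 1
  rw [show z * T x 1 * z⁻¹ = T x 1 by
    rw [← Subgroup.mem_center_iff.mp hz (T x 1), mul_inv_cancel_right]] at h
  obtain ⟨k, hk, hkx⟩ := T_eq_T hx one_ne_zero h
  exact ⟨k⁻¹, (eq_inv_smul_iff₀ hk).mpr hkx.symm⟩

theorem T_par_of_mk_eq (hm : 2 ≤ m) {v w : Vm} (hv : v ≠ 0) {a b : F} (ha : a ≠ 0)
    (h : (QuotientGroup.mk (T v a) : Cfsg.PSp m F) = QuotientGroup.mk (T w b)) :
    ∃ k : F, k ≠ 0 ∧ v = k • w := by
  obtain ⟨z, hz, he⟩ := (pspMk_eq_iff _ _).mp h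
  obtain ⟨k, hk, hkz⟩ := center_scalar (by omega) hz
  let L : Vm →ₗ[F] (F × F) :=
    ((Forms.sympB m F).flip v).prod ((Forms.sympB m F).flip w)
  obtain ⟨x, hx, hx0⟩ := (LinearMap.ker L).ne_bot_iff.mp
    (LinearMap.ker_ne_bot_of_finrank_lt (by simp; omega))
  rw [LinearMap.mem_ker] at hx
  have h1 : B x v = 0 := by simpa [L] using congrArg Prod.fst hx
  have h2 : B x w = 0 := by simpa [L] using congrArg Prod.snd hx
  have h3 := congrArg (fun s : Spm => s.1 *ᵥ x) he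
  simp only [sp_mul_mulVec, T_mulVec, h2, hkz, mul_zero, zero_smul, add_zero, B_smul_left, h1] at h3
  have hk1 : k = 1 := (smul_left_injective F hx0 ((one_smul F x).trans h3)).symm
  have hz1 : z = 1 := sp_ext fun y => by rw [hkz, hk1, one_smul, sp_one_mulVec]
  rw [hz1, mul_one] at he
  exact T_eq_T hv ha he.symm

theorem A_eq_one_iff (hm : 2 ≤ m) (g : Cfsg.GSp m F) : A m F g = 1 ↔ g ∈ (sc m F).range := by
  constructor
  · intro h
    have hl : ∀ v, v ≠ 0 → ∃ k : F, (g.1 : Mm) *ᵥ v = k • v := by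
      intro v hv
      obtain ⟨hgv, c, hc, e⟩ := (isTvOf_mk hv).map_A g
      rw [h, MulAut.one_apply] at e
      obtain ⟨k, -, hkv⟩ := T_par_of_mk_eq hm hgv hc e
      exact ⟨k, hkv⟩
    obtain ⟨μ, hμ⟩ := g.2
    obtain ⟨k, hk, hkv⟩ := scalar_of_lines (by omega) (g.1 : Mm) μ.ne_zero hμ hl
    exact ⟨Units.mk0 k hk, gsp_ext fun x => by rw [sc_mulVec, Units.val_mk0, hkv]⟩
  · rintro ⟨u, rfl⟩
    refine autPSp_ext fun s => congrArg QuotientGroup.mk (Subtype.ext ?_)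
    show ((sc m F u).1 : Mm) * s.1 * (((sc m F u).1⁻¹ : GLm) : Mm) = s.1
    rw [show ((sc m F u).1 : Mm) * s.1 = s.1 * ((sc m F u).1 : Mm) from
      Forms.matrix_ext_mulVec fun y => by
        rw [← Matrix.mulVec_mulVec, ← Matrix.mulVec_mulVec, sc_mulVec, sc_mulVec,
          Matrix.mulVec_smul], mul_assoc, Units.mul_inv, mul_one]

theorem mapGSp_sc (σ : F ≃+* F) (u : Fˣ) :
    mapGSp σ (sc m F u) = sc m F (Units.map (σ : F →* F) u) :=
  gsp_ext fun x => by
    obtain ⟨y, rfl⟩ : ∃ y, ⇑σ ∘ y = x := ⟨_, comp_symm σ x⟩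
    rw [mapGSp_val, map_mulVec, sc_mulVec, sc_mulVec]
    funext i
    simp

theorem mult_mapGSp (hm : 1 ≤ m) (σ : F ≃+* F) (g : Cfsg.GSp m F) :
    mult hm (mapGSp σ g) = Units.map (σ : F →* F) (mult hm g) :=
  mult_eq hm _ fun u v => by
    obtain ⟨u, rfl⟩ : ∃ w, ⇑σ ∘ w = u := ⟨_, comp_symm σ u⟩
    obtain ⟨v, rfl⟩ : ∃ w, ⇑σ ∘ w = v := ⟨_, comp_symm σ v⟩
    rw [mapGSp_val, map_mulVec, map_mulVec, sympForm_map, hasMult_mult hm g, map_mul, sympForm_map]
    rfl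

theorem fd_injective (hm : 2 ≤ m) : Function.Injective (Fd m F) := by
  rw [injective_iff_map_eq_one]
  intro σ h
  refine RingEquiv.ext fun c => ?_
  let i₀ : Fin m ⊕ Fin m := Sum.inl ⟨0, by omega⟩
  let i₁ : Fin m ⊕ Fin m := Sum.inl ⟨1, by omega⟩
  set v : Vm := Pi.single i₀ 1 + c • Pi.single i₁ 1 with hv
  have h01 : i₀ ≠ i₁ := by simp [i₀, i₁]
  have hv0 : v ≠ 0 := fun h0 => by simpa [hv, h01] using congrFun h0 i₀
  obtain ⟨hσv, d, hd, e⟩ := (isTvOf_mk hv0).map_Fd σ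
  rw [h, MulAut.one_apply] at e
  obtain ⟨k, -, hk⟩ := T_par_of_mk_eq hm hσv hd e
  have e0 := congrFun hk i₀
  have e1 := congrFun hk i₁
  simp [hv, h01, h01.symm] at e0 e1
  rw [show ((1 : F ≃+* F)) c = c from rfl, e1, ← e0, one_mul]

theorem isUnit_scalarHom (u : Fˣ) : IsUnit (u : F) := u.isUnit

/-- Conformal diagonal elements. -/
noncomputable def dEl (c : Fˣ) : Cfsg.GSp m F :=
  ⟨GeneralLinearGroup.mkOfDetNeZero
      (Matrix.diagonal (Sum.elim (fun _ => (c : F)) (fun _ => 1))) (by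
        rw [Matrix.det_diagonal, Finset.prod_ne_zero_iff]
        rintro (i | i) - <;> simp [c.ne_zero]),
    c, fun u v => by
      show B (Matrix.diagonal _ *ᵥ u) (Matrix.diagonal _ *ᵥ v) = _
      simp only [Forms.sympForm_eq, Finset.mul_sum, Matrix.mulVec_diagonal, Sum.elim_inl,
        Sum.elim_inr]
      exact Finset.sum_congr rfl fun i _ => by ring⟩

theorem mult_dEl (hm : 1 ≤ m) (c : Fˣ) : mult hm (dEl (m := m) c) = c :=
  mult_eq hm _ fun u v => by
    show B (Matrix.diagonal _ *ᵥ u) (Matrix.diagonal _ *ᵥ v) = _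
    simp only [Forms.sympForm_eq, Finset.mul_sum, Matrix.mulVec_diagonal, Sum.elim_inl,
      Sum.elim_inr]
    exact Finset.sum_congr rfl fun i _ => by ring

theorem det_fixSub (hm : 1 ≤ m) (σ : F ≃+* F) :
    (fixSub (mapGSp (m := m) σ)).map (mult hm) = fixSub (Units.map (σ : F →* F)) := by
  apply le_antisymm
  · rintro _ ⟨g, hg, rfl⟩
    show Units.map (σ : F →* F) (mult hm g) = mult hm g
    rw [← mult_mapGSp, show mapGSp σ g = g from hg]
  · intro c hc
    refine ⟨dEl c, gsp_ext fun x => ?_, mult_dEl hm c⟩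
    show (Matrix.diagonal (Sum.elim (fun _ => (c : F)) fun _ => 1)).map σ *ᵥ x = _
    rw [Matrix.diagonal_map (map_zero σ)]
    refine congrArg (fun M => M *ᵥ x) (congrArg Matrix.diagonal (funext fun i => ?_))
    rcases i with i | i
    · exact congrArg Units.val hc
    · exact map_one σ

theorem Inn_eq_map (hm : 1 ≤ m) :
    Cfsg.Inn (Cfsg.PSp m F) = (mult hm).ker.map (A m F) := by
  ext β
  rw [mem_Inn_iff, Subgroup.mem_map]
  constructor
  · rintro ⟨s, rfl⟩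
    exact ⟨spInc s, mult_eq hm _ fun u v => (sp_B s u v).trans (one_mul _).symm, rfl⟩
  · rintro ⟨g, hg, rfl⟩
    have h := hasMult_mult hm g
    rw [MonoidHom.mem_ker.mp hg] at h
    exact ⟨⟨(g.1 : Mm), Forms.mem_symplectic_iff.mpr fun u v => (h u v).trans (one_mul _)⟩,
      congrArg _ (gsp_ext fun x => rfl)⟩

instance inn_normal_psp : (Cfsg.Inn (Cfsg.PSp m F)).Normal := by
  refine ⟨?_⟩
  rintro _ ⟨x, rfl⟩ β
  refine ⟨β x, MulEquiv.ext fun y => ?_⟩
  show β x * y * (β x)⁻¹ = β (x * β⁻¹ y * x⁻¹)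
  rw [map_mul, map_mul, map_inv, MulAut.apply_inv_self]

section Fin

variable [Fintype F]

/-- The inner-diagonal group is normal. -/
theorem range_A_normal (hm : 2 ≤ m) : (A m F).range.Normal := by
  obtain ⟨p, hp⟩ := CharP.exists F
  obtain ⟨k, hpp, -⟩ := FiniteField.card F p
  have := Fact.mk hpp
  by_cases h2 : p = 2
  · subst h2
    have hm1 : 1 ≤ m := by omega
    have : (A m F).range = Cfsg.Inn (Cfsg.PSp m F) := by
      refine le_antisymm ?_ (by rw [Inn_eq_map hm1]; exact Subgroup.map_le_range _ _)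
      rintro _ ⟨g, rfl⟩
      obtain ⟨ν, hν⟩ := FiniteField.isSquare_of_char_two (ringChar.eq F 2) (mult hm1 g : F)
      have hν0 : ν ≠ 0 := fun h => (mult hm1 g).ne_zero (by rw [hν, h, mul_zero])
      rw [Inn_eq_map hm1]
      refine ⟨g * sc m F (Units.mk0 ν hν0)⁻¹, ?_, ?_⟩
      · show mult hm1 _ = 1
        rw [map_mul, mult_sc, inv_pow, mul_inv_eq_one]
        exact Units.ext (by rw [hν, Units.val_pow_eq_pow_val, Units.val_mk0, sq])
      · rw [map_mul, (A_eq_one_iff hm (sc m F _)).mpr ⟨_, rfl⟩, mul_one]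
    rw [this]; infer_instance
  · refine ⟨?_⟩
    rintro _ ⟨g, rfl⟩ β
    obtain ⟨h, σ, rfl⟩ := exists_decomp_odd (p := p) h2 hm β
    refine ⟨h * mapGSp σ g * h⁻¹, ?_⟩
    rw [map_mul, map_mul, map_inv, _root_.mul_inv_rev, show A m F h * Fd m F σ * A m F g *
      ((Fd m F σ)⁻¹ * (A m F h)⁻¹) = A m F h * (Fd m F σ * A m F g) * (Fd m F σ)⁻¹ * (A m F h)⁻¹
      by group, Fd_A]
    group

omit [Fintype F] in
theorem mapGSp_iter (σ : F ≃+* F) (k : ℕ) (g : Cfsg.GSp m F) :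
    ((((mapGSp σ)^[k] g).1 : GLm) : Mm) = (g.1 : Mm).map ⇑(σ ^ k) := by
  induction k with
  | zero => ext i j; rfl
  | succ k ih =>
    rw [Function.iterate_succ_apply', mapGSp_val, ih, pow_succ']
    ext i j
    rfl

theorem lang_gsp (hm : 1 ≤ m) {r : ℕ} (hr : 0 < r) {σ : F ≃+* F} (hσ : orderOf σ = r)
    (g : Cfsg.GSp m F) (hg : nrm (mapGSp σ) r g = 1) : ∃ h, g = h * (mapGSp σ h)⁻¹ := by
  classical
  let e : GLm ≃* GL (Fin (m + m)) F := Units.mapEquiv
    (Matrix.reindexAlgEquiv F F finSumFinEquiv).toMulEquiv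
  have hcomm : ∀ x : GLm, mapGL σ (e x) =
      e (Units.map (σ : F →+* F).mapMatrix.toMonoidHom x) := fun x => Units.ext rfl
  -- Lang in the general linear group
  obtain ⟨H', hH'⟩ := AutPSL.lang_field (n := m + m) hr hσ (e g.1) (by
    rw [show e g.1 = (e.toMonoidHom.comp (Cfsg.GSp m F).subtype) g from rfl,
      nrm_comp (mapGL σ) (mapGSp σ) _ (fun x => hcomm x.1), hg, map_one])
  obtain ⟨H, rfl⟩ : ∃ H, e H = H' := ⟨e.symm H', e.apply_symm_apply _⟩
  rw [hcomm, ← map_inv, ← map_mul, e.injective.eq_iff] at hH'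
  set K := Units.map (σ : F →+* F).mapMatrix.toMonoidHom H
  have hgH : (g.1 : Mm) * (K : Mm) = (H : Mm) := by
    rw [hH', Units.val_mul, mul_assoc, Units.inv_mul, mul_one]
  -- the multiplier is a coboundary
  obtain ⟨ν, hν⟩ : ∃ ν : Fˣ, mult hm g = ν * (Units.map (σ : F →* F) ν)⁻¹ := by
    obtain ⟨h, hh⟩ := AutPSL.lang_field (n := 1) hr hσ
      (GeneralLinearGroup.scalar (Fin 1) (mult hm g))
      (by rw [nrm_comp (mapGL σ) (Units.map (σ : F →* F)) _ (AutPSL.mapGL_scalar σ),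
        nrm_comp (Units.map (σ : F →* F)) (mapGSp σ) _
          (fun x => (mult_mapGSp hm σ x).symm), hg, map_one, map_one])
    refine ⟨GeneralLinearGroup.det h, ?_⟩
    have := congrArg (fun x => GeneralLinearGroup.det x) hh
    simp only [AutPSL.det_scalar, pow_one, map_mul, map_inv, AutPSL.det_mapGL] at this
    exact this
  let N : Mm := fun i j => (ν : F)⁻¹ * B ((H : Mm) *ᵥ Pi.single i 1) ((H : Mm) *ᵥ Pi.single j 1)
  have hs1 : ∀ i : Fin m ⊕ Fin m, ⇑σ ∘ (Pi.single i (1 : F) : Vm) = Pi.single i 1 := fun i => by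
    funext l; by_cases hl : l = i <;> simp [hl]
  have hN : ∀ i j, σ (N i j) = N i j := by
    intro i j
    have h1 : ∀ l, (K : Mm) *ᵥ Pi.single l 1 = ⇑σ ∘ ((H : Mm) *ᵥ Pi.single l 1) := fun l => by
      conv_lhs => rw [← hs1 l]
      exact map_mulVec σ _ _
    have h2 := hasMult_mult hm g ((K : Mm) *ᵥ Pi.single i 1) ((K : Mm) *ᵥ Pi.single j 1)
    rw [Matrix.mulVec_mulVec, Matrix.mulVec_mulVec, hgH, h1, h1, sympForm_map, hν, Units.val_mul,
      Units.val_inv_eq_inv_val] at h2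
    show σ ((ν : F)⁻¹ * _) = (ν : F)⁻¹ * _
    rw [map_mul, map_inv₀]
    conv_rhs => rw [h2]
    show (σ (ν : F))⁻¹ * _ = (ν : F)⁻¹ * ((ν : F) * (σ (ν : F))⁻¹ * _)
    field_simp [ν.ne_zero]
  -- descend to the fixed field
  haveI : Finite (F ≃+* F) := Finite.of_injective (fun e => (e : F → F)) DFunLike.coe_injective
  let S := Subgroup.zpowers σ
  let F₀ := FixedPoints.subfield S F
  haveI : Fintype F₀ := Fintype.ofFinite F₀
  have hmemK : ∀ x : F, σ x = x → x ∈ F₀ := by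
    intro x hx g
    obtain ⟨k, hk⟩ := g.2
    show (g : F ≃+* F) x = x
    rw [← hk]
    have : σ ∈ MulAction.stabilizer (F ≃+* F) x := hx
    exact (zpow_mem this k : σ ^ k ∈ MulAction.stabilizer (F ≃+* F) x)
  have hfixK : ∀ x : F₀, σ (x : F) = (x : F) := fun x => x.2 ⟨σ, Subgroup.mem_zpowers σ⟩
  let N₀ : Matrix (Fin m ⊕ Fin m) (Fin m ⊕ Fin m) F₀ := fun i j => ⟨N i j, hmemK _ (hN i j)⟩
  have hNbil : ∀ x y, x ⬝ᵥ (N *ᵥ y) = (ν : F)⁻¹ * B ((H : Mm) *ᵥ x) ((H : Mm) *ᵥ y) := by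
    intro x y
    rw [B_mat_ext (H : Mm) ((ν : F) • Matrix.toLinearMap₂' F N) (fun i j => ?_) x y]
    · simp [Matrix.toLinearMap₂'_apply', ν.ne_zero]
    · have hij : Pi.single i 1 ⬝ᵥ N *ᵥ Pi.single j 1 = N i j := by
        simp [Matrix.mulVec_single_one, Matrix.col]
      rw [LinearMap.smul_apply, LinearMap.smul_apply, smul_eq_mul, Matrix.toLinearMap₂'_apply',
        hij]
      show _ = (ν : F) * ((ν : F)⁻¹ * _)
      rw [← mul_assoc, mul_inv_cancel₀ ν.ne_zero, one_mul]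
  have hHunit : ∀ y, (H : Mm) *ᵥ y = 0 → y = 0 := fun y hy => by
    by_contra h; exact gl_mulVec_ne H h hy
  have hdet : N.det ≠ 0 := fun hd => by
    obtain ⟨y, hy0, hy⟩ := Matrix.exists_mulVec_eq_zero_iff.mpr hd
    obtain ⟨x, hx⟩ := exists_B_ne (fun h => hy0 (hHunit y h))
    obtain ⟨x', rfl⟩ : ∃ x', (H : Mm) *ᵥ x' = x :=
      ⟨((H⁻¹ : GLm) : Mm) *ᵥ x, by simp [Matrix.mulVec_mulVec]⟩
    have := hNbil x' y
    rw [hy, dotProduct_zero, eq_comm, mul_eq_zero, inv_eq_zero, or_iff_right ν.ne_zero] at this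
    exact hx this
  have hdet0 : N₀.det ≠ 0 := fun hd => hdet (by
    rw [show N = N₀.map F₀.subtype from rfl, ← RingHom.mapMatrix_apply, ← RingHom.map_det, hd,
      map_zero])
  let B₀ := Matrix.toBilin' N₀
  have hcast : ∀ x y, ((B₀ x y : F₀) : F) =
      (fun i => (x i : F)) ⬝ᵥ (N *ᵥ fun i => (y i : F)) := fun x y => by
    rw [show B₀ x y = x ⬝ᵥ (N₀ *ᵥ y) from Matrix.toBilin'_apply' _ _ _, ← F₀.subtype_apply,
      RingHom.map_dotProduct]
    congr 1
    funext i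
    exact RingHom.map_mulVec F₀.subtype N₀ y i
  have halt : B₀.IsAlt := fun x => Subtype.ext (by
    have e := hcast x x
    rw [e, hNbil, B_self, mul_zero]
    rfl)
  have hI₀ : Forms.IsForm (RingHom.id F₀) B₀ (fun _ => 0) :=
    Forms.isForm_alt _ (Matrix.nondegenerate_toBilin'_iff.mpr
      (Matrix.nondegenerate_of_det_ne_zero hdet0)) halt
  obtain ⟨b, hb⟩ := exists_symp_basis B₀ hI₀ m (by simp; omega)
  let P : Mm := fun i j => (b j i : F)
  have hcol : ∀ j, P *ᵥ Pi.single j 1 = fun i => (b j i : F) := fun j => by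
    rw [Matrix.mulVec_single_one]; rfl
  have hPbil : ∀ x y, B ((H : Mm) *ᵥ (P *ᵥ x)) ((H : Mm) *ᵥ (P *ᵥ y)) = (ν : F) * B x y := by
    intro x y
    have hbase : ∀ i j, B ((H : Mm) *ᵥ (P *ᵥ Pi.single i 1)) ((H : Mm) *ᵥ (P *ᵥ Pi.single j 1)) =
        (ν : F) * B (Pi.single i 1) (Pi.single j 1) := by
      intro i j
      have e := hcast (b i) (b j)
      rw [hb, hNbil, ← hcol, ← hcol] at e
      have hsub : ∀ l, (Pi.single l 1 : Vm) = ⇑F₀.subtype ∘ Pi.single l 1 := fun l => by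
        funext k; by_cases hl : k = l <;> simp [hl]
      rw [show B (Pi.single i 1) (Pi.single j 1) =
        ((Cfsg.sympForm m F₀ (Pi.single i 1) (Pi.single j 1) : F₀) : F) by
        rw [hsub, hsub]; exact B_comp_hom _ _ _, e, ← mul_assoc,
        mul_inv_cancel₀ ν.ne_zero, one_mul]
    rw [Matrix.mulVec_mulVec, Matrix.mulVec_mulVec,
      B_mat_ext ((H : Mm) * P) ((ν : F) • Forms.sympB m F) (fun i j => ?_) x y]
    · simp [sB]
    · rw [← Matrix.mulVec_mulVec, ← Matrix.mulVec_mulVec, hbase]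
      simp [sB]
  have hPdet : P.det ≠ 0 := fun hd => by
    obtain ⟨y, hy0, hy⟩ := Matrix.exists_mulVec_eq_zero_iff.mpr hd
    obtain ⟨x, hx⟩ := exists_B_ne hy0
    have := hPbil x y
    rw [hy, Matrix.mulVec_zero, B_zero_right, eq_comm, mul_eq_zero, or_iff_right ν.ne_zero] at this
    exact hx this
  let PU : GLm := GeneralLinearGroup.mkOfDetNeZero P hPdet
  refine ⟨⟨H * PU, ν, fun x y => ?_⟩, ?_⟩
  · show B (((H : Mm) * P) *ᵥ x) (((H : Mm) * P) *ᵥ y) = _
    rw [← Matrix.mulVec_mulVec, ← Matrix.mulVec_mulVec, hPbil]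
  · refine eq_mul_inv_of_mul_eq (Subtype.ext (Units.ext ?_))
    show (g.1 : Mm) * ((H : Mm) * P).map σ = (H : Mm) * P
    rw [Matrix.map_mul, show P.map σ = P from Matrix.ext fun i j => hfixK _,
      ← Matrix.mul_assoc, show (H : Mm).map σ = (K : Mm) from rfl, hgH]

theorem fieldTwist (hm : 2 ≤ m) {r : ℕ} (hr : 0 < r) {σ : F ≃+* F} (hσ : orderOf σ = r) :
    GTwist (A m F) (Fd m F σ) (sc m F) (mapGSp σ) (Units.map (σ : F →* F)) r where
  comm g := Fd_A σ g
  pow_tau := by rw [← map_pow, ← hσ, pow_orderOf_eq_one, map_one]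
  iter g := gsp_ext fun x => by
    rw [mapGSp_iter, ← hσ, pow_orderOf_eq_one]
    rfl
  scalar u := mapGSp_sc σ u
  sc_comm := sc_comm
  sc_inj := sc_inj (by omega)
  ker_eq := by ext g; exact A_eq_one_iff hm g
  lang := lang_gsp (by omega) hr hσ
  lang₀ u hu := by
    obtain ⟨h, hh⟩ := AutPSL.lang_field (n := 1) hr hσ (GeneralLinearGroup.scalar (Fin 1) u)
      (by rw [nrm_comp (mapGL σ) (Units.map (σ : F →* F)) _ (AutPSL.mapGL_scalar σ), hu, map_one])
    refine ⟨GeneralLinearGroup.det h, ?_⟩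
    have := congrArg (fun x => GeneralLinearGroup.det x) hh
    simp only [AutPSL.det_scalar, pow_one, map_mul, map_inv, AutPSL.det_mapGL] at this
    exact this

theorem centralizer_equiv (hm : 2 ≤ m) {σ : F ≃+* F} {F₀ : Type v} [Field F₀] (ι : F₀ →+* F)
    (hι : ∀ x : F, σ x = x ↔ x ∈ ι.range) :
    Nonempty (↥((fixSub (mapGSp σ)).map (A m F)) ≃* Cfsg.PGSp m F₀) := by
  classical
  have hB : ∀ u v, B (⇑ι ∘ u) (⇑ι ∘ v) = ι (Cfsg.sympForm m F₀ u v) := B_comp_hom ι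
  have hmv : ∀ (M : Matrix (Fin m ⊕ Fin m) (Fin m ⊕ Fin m) F₀) u,
      M.map ι *ᵥ (⇑ι ∘ u) = ⇑ι ∘ (M *ᵥ u) := fun M u => by
    funext i; simp [Matrix.mulVec, dotProduct, map_sum]
  have hmem : ∀ g : Cfsg.GSp m F₀, GeneralLinearGroup.map ι g.1 ∈ Cfsg.GSp m F := by
    intro g
    obtain ⟨c, hc⟩ := g.2
    have hsing : ∀ i, (Pi.single i 1 : Vm) = ⇑ι ∘ Pi.single i 1 := fun i => by
      funext l; by_cases hl : l = i <;> simp [hl]
    refine ⟨Units.map (ι : F₀ →* F) c, fun u v => ?_⟩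
    show B ((g.1 : Matrix _ _ F₀).map ι *ᵥ u) ((g.1 : Matrix _ _ F₀).map ι *ᵥ v) = ι (c : F₀) * _
    rw [B_mat_ext _ ((ι (c : F₀)) • Forms.sympB m F) (fun i j => ?_) u v]
    · simp [sB]
    · rw [hsing i, hsing j, hmv, hmv, hB, hc, map_mul]
      simp [sB, hB]
  let j : Cfsg.GSp m F₀ →* Cfsg.GSp m F :=
    ((GeneralLinearGroup.map ι).comp (Cfsg.GSp m F₀).subtype).codRestrict _ hmem
  let Φ : Cfsg.GSp m F₀ →* MulAut (Cfsg.PSp m F) := (A m F).comp j
  have hrange : Φ.range = (fixSub (mapGSp σ)).map (A m F) := by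
    rw [MonoidHom.range_comp]
    congr 1
    ext g
    constructor
    · rintro ⟨g₀, rfl⟩
      refine Subtype.ext (Units.ext (Matrix.ext fun a b => ?_))
      exact (hι _).mpr ⟨(g₀.1 : Matrix _ _ F₀) a b, rfl⟩
    · intro hg
      have h : ∀ a b, (g.1 : Mm) a b ∈ ι.range := fun a b => (hι _).mp
        (congrArg (fun x : Cfsg.GSp m F => (x.1 : Mm) a b) (show mapGSp σ g = g from hg))
      choose e he using h
      have hme : (Matrix.of e).map ι = (g.1 : Mm) := Matrix.ext fun a b => he a b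
      have hd : (Matrix.of e).det ≠ 0 := fun h0 => by
        have h1 : (g.1 : Mm).det ≠ 0 := (GeneralLinearGroup.det g.1).ne_zero
        rw [← hme, ← RingHom.mapMatrix_apply, ← RingHom.map_det, h0, map_zero] at h1
        exact h1 rfl
      have hμ := hasMult_mult (show 1 ≤ m by omega) g
      obtain ⟨x, y, hxy⟩ := exists_B_one' (m := m) (F := F₀) (by omega)
      have hval : ∀ u v, ι (Cfsg.sympForm m F₀ (Matrix.of e *ᵥ u) (Matrix.of e *ᵥ v)) =
          (mult (show 1 ≤ m by omega) g : F) * ι (Cfsg.sympForm m F₀ u v) := fun u v => by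
        rw [← hB, ← hB, ← hmv, ← hmv, hme, hμ]
      set c := Cfsg.sympForm m F₀ (Matrix.of e *ᵥ x) (Matrix.of e *ᵥ y) with hc
      have hcμ : ι c = (mult (show 1 ≤ m by omega) g : F) := by
        rw [hc, hval, hxy, map_one, mul_one]
      have hc0 : c ≠ 0 := fun h => (mult (show 1 ≤ m by omega) g).ne_zero
        (by rw [← hcμ, h, map_zero])
      refine ⟨⟨GeneralLinearGroup.mkOfDetNeZero _ hd, Units.mk0 c hc0, fun u v => ι.injective ?_⟩,
        Subtype.ext (Units.ext hme)⟩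
      rw [map_mul, Units.val_mk0, hcμ]
      exact hval u v
  have hker : Φ.ker = (Cfsg.Geo.scalars (Fin m ⊕ Fin m) F₀).subgroupOf (Cfsg.GSp m F₀) := by
    ext g₀
    rw [MonoidHom.mem_ker, MonoidHom.comp_apply, A_eq_one_iff hm, Subgroup.mem_subgroupOf]
    constructor
    · rintro ⟨u, hu⟩
      have h1 : ∀ a b, ι ((g₀.1 : Matrix _ _ F₀) a b) = if a = b then (u : F) else 0 := fun a b => by
        have := (congrArg (fun x : Cfsg.GSp m F => (x.1 : Mm) a b) hu).symm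
        simp [sc, Matrix.scalar_apply, Matrix.diagonal_apply] at this
        exact this
      set z : Fin m ⊕ Fin m := Sum.inl ⟨0, by omega⟩
      have h2 : (g₀.1 : Matrix _ _ F₀) z z ≠ 0 := fun h0 => u.ne_zero (by
        have := h1 z z; simpa [h0] using this.symm)
      refine ⟨Units.mk0 _ h2, Units.ext (Matrix.ext fun a b => ι.injective ?_)⟩
      simp only [Units.coe_map, RingHom.toMonoidHom_eq_coe, MonoidHom.coe_coe, Matrix.scalar_apply,
        Matrix.diagonal_apply, Units.val_mk0]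
      rw [h1]
      by_cases hab : a = b
      · subst hab; simp [h1]
      · simp [hab]
    · rintro ⟨u, hu⟩
      refine ⟨Units.map (ι : F₀ →* F) u, gsp_ext fun x => ?_⟩
      rw [sc_mulVec]
      show _ = ((g₀.1 : GL (Fin m ⊕ Fin m) F₀) :
        Matrix (Fin m ⊕ Fin m) (Fin m ⊕ Fin m) F₀).map ι *ᵥ x
      rw [show (g₀.1 : GL (Fin m ⊕ Fin m) F₀) = _ from hu.symm]
      funext a
      simp [Matrix.mulVec, dotProduct, Matrix.scalar_apply, Matrix.diagonal_apply, apply_ite]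
  exact ⟨((MulEquiv.subgroupCongr hrange.symm).trans
    (QuotientGroup.quotientKerEquivRange Φ).symm).trans (QuotientGroup.quotientMulEquivOfEq hker)⟩

end Fin

end Cfsg.Agent.KnownB.Proj.Symp
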