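import Cfsg.Agent.KnownB.Proj.Symp.Aut

/-! Transvections of `PSp_{2m}(q)`, `q` even, `m ≥ 3`. -/

set_option autoImplicit false

namespace Cfsg.Agent.KnownB.Proj.Symp

open Matrix

universe u

variable {m : ℕ} {F : Type u} [Field F] [CharP F 2]

local notation "Vm" => (Fin m ⊕ Fin m → F)
local notation "Mm" => Matrix (Fin m ⊕ Fin m) (Fin m ⊕ Fin m) F
local notation "Spm" => Matrix.symplecticGroup (Fin m) F
local notation "B" => Cfsg.sympForm m F

theorem center_eq_one {z : Spm} (hz : z ∈ Subgroup.center Spm) : z = 1 := by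
  refine sp_ext fun x => ?_
  rw [sp_one_mulVec]
  by_cases hx : x = 0
  · rw [hx, Matrix.mulVec_zero]
  have h := T_conj z x 1
  rw [show z * T x 1 * z⁻¹ = T x 1 by
    rw [← Subgroup.mem_center_iff.mp hz (T x 1), mul_inv_cancel_right]] at h
  obtain ⟨k, hk, hkx⟩ := T_eq_T hx one_ne_zero h
  have h' : T (z.1 *ᵥ x) (1 * k ^ 2) = T (z.1 *ᵥ x) 1 := by rw [← T_smul, ← hkx]; exact h
  obtain ⟨y, hy⟩ := exists_B_one (sp_mulVec_ne z hx)
  have h1 := congrArg (fun s : Spm => s.1 *ᵥ y) h'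
  simp only [T_mulVec, hy, mul_one, one_mul, add_left_cancel_iff] at h1
  have hsq : k ^ 2 = 1 := smul_left_injective F (sp_mulVec_ne z hx) h1
  have hk1 : k = 1 := by
    have h2 : (k - 1) ^ 2 = 0 := by rw [sub_pow_char, hsq, one_pow, sub_self]
    exact sub_eq_zero.mp (eq_zero_of_pow_eq_zero h2)
  rw [hk1, one_smul] at hkx
  exact hkx.symm

theorem mk_inj {s t : Spm}
    (h : (QuotientGroup.mk s : Cfsg.PSp m F) = QuotientGroup.mk t) : s = t := by
  obtain ⟨z, hz, rfl⟩ := (pspMk_eq_iff s t).mp h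
  rw [center_eq_one hz, mul_one]

theorem commute_of_mk {s t : Spm}
    (h : Commute (QuotientGroup.mk s : Cfsg.PSp m F) (QuotientGroup.mk t)) : Commute s t :=
  mk_inj (by rw [QuotientGroup.mk_mul, QuotientGroup.mk_mul]; exact h)

theorem par_two {v w : Vm} {x : Cfsg.PSp m F} (h : IsTvOf v x) (h' : IsTvOf w x) :
    ∃ k : F, k ≠ 0 ∧ v = k • w := by
  obtain ⟨hv, a, ha, rfl⟩ := h
  obtain ⟨hw, b, hb, hb'⟩ := h'
  exact T_eq_T hv ha (mk_inj hb'.symm)

theorem commute_iff_two {v w : Vm} {x y : Cfsg.PSp m F} (hx : IsTvOf v x) (hy : IsTvOf w y) :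
    Commute x y ↔ B v w = 0 := by
  obtain ⟨hv, a, ha, rfl⟩ := hx
  obtain ⟨hw, b, hb, rfl⟩ := hy
  constructor
  · intro h
    have h1 := T_conj (T v a) w b
    rw [(commute_of_mk h).eq, mul_inv_cancel_right] at h1
    obtain ⟨k, hk, hkw⟩ := T_eq_T hw hb h1
    rw [T_mulVec] at hkw
    have h2 := congrArg (fun u => B u v) hkw
    simp only [B_smul_left, B_add_left, B_self, mul_zero, add_zero] at h2
    by_cases hbv : B w v = 0
    · rw [B_swap, hbv, neg_zero]
    have hk1 : k = 1 := mul_right_cancel₀ hbv (by rw [one_mul]; exact h2.symm)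
    rw [hk1, one_smul, left_eq_add, smul_eq_zero, mul_eq_zero] at hkw
    exact absurd hkw (by rintro ((h | h) | h); exacts [ha h, hbv h, hv h])
  · intro h
    refine (Commute.map ?_ (QuotientGroup.mk' (Subgroup.center Spm)) :)
    refine mul_inv_eq_iff_eq_mul.mp ?_
    rw [T_conj, T_mulVec, B_swap, h, neg_zero, mul_zero, zero_smul, add_zero]

/-- Conjugates whose product has order dividing four commute. -/
def IsOddTransp (x : Cfsg.PSp m F) : Prop :=
  ∀ g : Cfsg.PSp m F, (x * (g * x * g⁻¹)) ^ 4 = 1 → Commute x (g * x * g⁻¹)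

omit [CharP F 2] in
theorem isOddTransp_map (β : MulAut (Cfsg.PSp m F)) {x : Cfsg.PSp m F} (h : IsOddTransp x) :
    IsOddTransp (β x) := by
  intro g hg
  obtain ⟨g, rfl⟩ := β.surjective g
  rw [← map_inv, ← map_mul, ← map_mul] at hg ⊢
  rw [← map_mul, ← map_pow] at hg
  exact (h g (β.injective (hg.trans (map_one β).symm))).map β

theorem isTvOf_oddTransp {v : Vm} {x : Cfsg.PSp m F} (h : IsTvOf v x) : IsOddTransp x := by
  obtain ⟨hv, a, ha, rfl⟩ := h
  intro g hg
  obtain ⟨s, rfl⟩ := QuotientGroup.mk_surjective g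
  rw [← QuotientGroup.mk_inv, ← QuotientGroup.mk_mul, ← QuotientGroup.mk_mul, T_conj] at hg ⊢
  rw [← QuotientGroup.mk_mul, ← QuotientGroup.mk_pow, ← QuotientGroup.mk_one] at hg
  set w := s.1 *ᵥ v
  have hw : w ≠ 0 := sp_mulVec_ne s hv
  have h4 := mk_inj hg
  refine (commute_iff_two ⟨hv, a, ha, rfl⟩ ⟨hw, a, ha, rfl⟩).mpr ?_
  by_contra hne
  set β := B v w with hβ
  have hwv : B w v = β := by
    rw [B_swap, ← hβ]; exact CharTwo.neg_eq β
  set M := T v a * T w a
  have hM : ∀ x : Vm, M.1 *ᵥ x - x = (a * B x w) • w + (a * (B x v + a * B x w * β)) • v :=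
    fun x => by
      rw [sp_mul_mulVec, T_mulVec, T_mulVec, B_add_left, B_smul_left, hwv]; module
  -- `M - 1` is injective on the span of `v` and `w`
  have hinj : ∀ c d : F, M.1 *ᵥ (c • v + d • w) - (c • v + d • w) = 0 → c = 0 ∧ d = 0 := by
    intro c d h0
    rw [hM] at h0
    simp only [B_add_left, B_smul_left, B_self, mul_zero, add_zero, zero_add, ← hβ, hwv] at h0
    have h1 := congrArg (fun u => B u v) h0
    have h2 := congrArg (fun u => B u w) h0
    simp only [B_add_left, B_smul_left, B_self, B_zero_left, hwv, ← hβ, mul_zero, add_zero,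
      zero_add, mul_eq_zero, ha, hne, false_or, or_false] at h1 h2
    refine ⟨h1, ?_⟩
    rw [h1, zero_mul, mul_zero, zero_mul, add_zero, mul_eq_zero, or_iff_left hne] at h2
    exact h2
  have hstep : ∀ c d : F, ∃ c' d' : F,
      M.1 *ᵥ (c • v + d • w) - (c • v + d • w) = c' • v + d' • w := fun c d =>
    ⟨_, _, by rw [hM, add_comm]⟩
  have hiter : ∀ k : ℕ, ∃ c d : F, ¬(c = 0 ∧ d = 0) ∧ (M.1 - 1) ^ k *ᵥ v = c • v + d • w := by
    intro k
    induction k with
    | zero => exact ⟨1, 0, fun h => one_ne_zero h.1, by simp⟩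
    | succ k ih =>
      obtain ⟨c, d, hcd, e⟩ := ih
      obtain ⟨c', d', e'⟩ := hstep c d
      refine ⟨c', d', fun h0 => hcd (hinj c d ?_), ?_⟩
      · rw [e', h0.1, h0.2, zero_smul, zero_smul, add_zero]
      · rw [pow_succ', ← Matrix.mulVec_mulVec, e, Matrix.sub_mulVec, Matrix.one_mulVec, e']
  obtain ⟨c, d, hcd, e⟩ := hiter 4
  have hz : (M.1 - 1) ^ 4 = 0 := by
    have hne' : Nonempty (Fin m ⊕ Fin m) := by
      by_contra hh
      exact hv (funext fun i => absurd ⟨i⟩ hh)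
    rw [show (4 : ℕ) = 2 ^ 2 from rfl, sub_pow_char_pow_of_commute _ _ (Commute.one_right _),
      one_pow, ← SubmonoidClass.coe_pow, show M ^ 2 ^ 2 = 1 from h4]
    exact sub_self _
  rw [hz, Matrix.zero_mulVec] at e
  have e1 := congrArg (fun u => B u v) e
  have e2 := congrArg (fun u => B u w) e
  simp only [B_add_left, B_smul_left, B_self, B_zero_left, hwv, ← hβ, mul_zero, add_zero,
    zero_add] at e1 e2
  exact hcd ⟨(mul_eq_zero.mp e2.symm).resolve_right hne, (mul_eq_zero.mp e1.symm).resolve_right hne⟩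

section Fin

variable [Fintype F]

theorem centralP_isTv_two (hm : 3 ≤ m) {x : Cfsg.PSp m F} (h : CentralP 2 x) (hodd : IsOddTransp x) :
    ∃ v, IsTvOf v x := by
  have := Fact.mk Nat.prime_two
  obtain ⟨hx, P, hxP, hP⟩ := h
  obtain ⟨Q, rfl⟩ := Sylow.mapSurjective_surjective
    (QuotientGroup.mk'_surjective (Subgroup.center Spm)) 2 P
  obtain ⟨u, hu, rfl⟩ := hxP
  obtain ⟨e, he, hfix, hrad⟩ := exists_fixed (p := 2) (by omega) Q
  have hcomm : ∀ w ∈ (Q : Subgroup Spm), Commute u w := fun w hw =>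
    commute_of_mk (hP _ ⟨w, hw, rfl⟩)
  have hue : u.1 *ᵥ e = e := hfix u hu
  obtain ⟨x₀, hx₀⟩ := exists_B_one he
  have hperp : ∀ a, B a e = 0 → ∃ k : F, u.1 *ᵥ a = a + k • e := by
    intro a ha
    set d := u.1 *ᵥ a - a with hd
    have key : ∀ z, B z e • d + B z d • e = 0 := by
      intro z
      obtain ⟨w, rfl⟩ : ∃ w, u.1 *ᵥ w = z := ⟨_, sp_mulVec_inv u z⟩
      have h1 := congrArg (fun s : Spm => s.1 *ᵥ w) (hcomm _ (hrad (siegel_mem ha))).eq
      simp only [sp_mul_mulVec, siegel_mulVec, Matrix.mulVec_add, Matrix.mulVec_smul, hue] at h1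
      have e1 : B (u.1 *ᵥ w) e = B w e := by
        conv_lhs => arg 4; rw [← hue]
        rw [sp_B]
      have hua : u.1 *ᵥ a = a + d := by rw [hd]; module
      have e2 : B w a = B (u.1 *ᵥ w) a + B (u.1 *ᵥ w) d := by
        rw [← B_add_right, ← hua, sp_B]
      rw [e2, hua, e1] at h1
      rw [e1]
      linear_combination (norm := module) h1
    have h1 := key x₀
    rw [hx₀, one_smul] at h1
    refine ⟨-B x₀ d, ?_⟩
    rw [show u.1 *ᵥ a = a + d by rw [hd]; module, add_right_inj, neg_smul]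
    exact eq_neg_of_add_eq_zero_left h1
  set f := x₀ with hf
  set a := u.1 *ᵥ f - f with hadef
  have hae : B a e = 0 := by
    rw [hadef, B_sub_left, sub_eq_zero]
    conv_lhs => arg 4; rw [← hue]
    rw [sp_B]
  -- `u` is determined by `a`
  have hef : B e f = 1 := by rw [B_swap, hx₀]; exact CharTwo.neg_eq 1
  have hea : B e a = 0 := by rw [B_swap, hae, neg_zero]
  set c := B f a with hc
  have hu' : ∀ y, u.1 *ᵥ y = y + (B y a + c * B y e) • e + B y e • a := by
    intro y
    have hye : B (y - B y e • f) e = 0 := by rw [B_sub_left, B_smul_left, hx₀, mul_one, sub_self]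
    obtain ⟨k, hk⟩ := hperp _ hye
    have h2 := sp_B u (y - B y e • f) f
    rw [hk, show u.1 *ᵥ f = f + a by rw [hadef]; abel] at h2
    simp only [B_add_right, B_add_left, B_sub_left, B_smul_left, hea, hef, ← hc] at h2
    have h1 : k = B y a + c * B y e := by
      have h3 : k + (B y a - c * B y e) = 0 := by linear_combination h2
      rw [CharTwo.add_eq_zero.mp h3, CharTwo.sub_eq_add]
    rw [Matrix.mulVec_sub, Matrix.mulVec_smul, show u.1 *ᵥ f = f + a by rw [hadef]; abel,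
      sub_eq_iff_eq_add] at hk
    rw [hk, h1]
    module
  by_cases hak : ∃ k : F, a = k • e
  · obtain ⟨k, hk⟩ := hak
    have hck : c = k := by rw [hc, hk, B_smul_right, hx₀, mul_one]
    refine ⟨e, he, k, ?_, ?_⟩
    · intro h0
      refine hx ?_
      rw [show u = 1 from sp_ext fun y => by
        rw [hu', sp_one_mulVec, hck, hk, h0]
        simp [B_zero_right]]
      rfl
    · refine congrArg QuotientGroup.mk (sp_ext fun y => ?_)
      rw [T_mulVec, hu', hck, hk, B_smul_right]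
      have : ((2 : ℕ) : F) = 0 := CharP.cast_eq_zero F 2
      push_cast at this
      match_scalars
      · rfl
      · linear_combination (-(k * B y e)) * this
  -- otherwise exhibit a conjugate violating the property
  exfalso
  push Not at hak
  -- a hyperbolic basis of the relevant part
  let L : Submodule F Vm := Submodule.span F {e, a}
  obtain ⟨f₁, hf₁e, hf₁a, g₁, hg₁e, hg₁a, hg₁f⟩ : ∃ f₁ : Vm, B f₁ e = 1 ∧ B f₁ a = 0 ∧ ∃ g₁,
      B g₁ e = 0 ∧ B g₁ a = 1 ∧ B g₁ f₁ = 0 := by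
    have hne' : a - c • e ∉ Submodule.span F ({0} : Set Vm) := by
      simp only [Submodule.span_zero_singleton, Submodule.mem_bot, sub_eq_zero]
      exact hak c
    obtain ⟨g₁, hg₁e, hg₁a⟩ : ∃ g, B g e = 0 ∧ B g a = 1 := by
      by_contra hcon
      push Not at hcon
      have hall : ∀ y, B y e = 0 → B y a = 0 := fun y hy => by
        by_contra h
        exact hcon ((B y a)⁻¹ • y) (by rw [B_smul_left, hy, mul_zero])
          (by rw [B_smul_left, inv_mul_cancel₀ h])
      refine hak c (sub_eq_zero.mp ((Forms.sympB_nondegenerate (m := m) (F := F)).1 _ fun y => ?_))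
      rw [sB, B_sub_left, B_smul_left, B_swap a, B_swap e]
      have h1 := hall (y - B y e • f) (by rw [B_sub_left, B_smul_left, hx₀, mul_one, sub_self])
      rw [B_sub_left, B_smul_left, ← hc] at h1
      linear_combination -h1
    refine ⟨f - c • g₁, by rw [B_sub_left, B_smul_left, hx₀, hg₁e]; ring,
      by rw [B_sub_left, B_smul_left, hg₁a, ← hc]; ring,
      g₁ - B g₁ f • e, by rw [B_sub_left, B_smul_left, hg₁e, B_self]; ring,
      by rw [B_sub_left, B_smul_left, hg₁a, hea]; ring, ?_⟩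
    simp only [B_sub_left, B_sub_right, B_smul_left, B_smul_right, B_self, hef, hg₁e,
      B_swap e g₁]
    ring
  have hf₁e' : B e f₁ = 1 := by rw [B_swap, hf₁e]; exact CharTwo.neg_eq 1
  have hg₁a' : B a g₁ = 1 := by rw [B_swap, hg₁a]; exact CharTwo.neg_eq 1
  have hfg : B f₁ g₁ = 0 := by rw [B_swap, hg₁f, neg_zero]
  let Φ : Vm →ₗ[F] (Fin 4 → F) := LinearMap.pi
    ![(Forms.sympB m F).flip e, (Forms.sympB m F).flip a, (Forms.sympB m F).flip f₁,
      (Forms.sympB m F).flip g₁]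
  obtain ⟨k₀, hk₀, hk₀0⟩ := (LinearMap.ker Φ).ne_bot_iff.mp
    (LinearMap.ker_ne_bot_of_finrank_lt (by simp; omega))
  rw [LinearMap.mem_ker] at hk₀
  have hke : B k₀ e = 0 := by simpa [Φ] using congrFun hk₀ 0
  have hka : B k₀ a = 0 := by simpa [Φ] using congrFun hk₀ 1
  have hkg : B k₀ g₁ = 0 := by simpa [Φ] using congrFun hk₀ 3
  have hek : B e k₀ = 0 := by rw [B_swap, hke, neg_zero]
  have hak' : B a k₀ = 0 := by rw [B_swap, hka, neg_zero]
  have hgk : B g₁ k₀ = 0 := by rw [B_swap, hkg, neg_zero]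
  have hg₁e' : B e g₁ = 0 := by rw [B_swap, hg₁e, neg_zero]
  -- an isometry moving `(e, a)` to `(g₁, k₀)`
  have hli : LinearIndependent F ![e, a] := by
    rw [LinearIndependent.pair_iff]
    intro s t hst
    have h1 := congrArg (fun z => B z f₁) hst
    have h2 := congrArg (fun z => B z g₁) hst
    simp only [B_add_left, B_smul_left, B_zero_left, hf₁e', hg₁a', hg₁e', B_swap a f₁, hf₁a] at h1 h2
    exact ⟨by linear_combination h1, by linear_combination h2⟩
  have hli' : LinearIndependent F ![g₁, k₀] := by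
    rw [LinearIndependent.pair_iff]
    intro s t hst
    have h1 := congrArg (fun z => B z a) hst
    simp only [B_add_left, B_smul_left, B_zero_left, hg₁a, hka] at h1
    have hs : s = 0 := by linear_combination h1
    rw [hs, zero_smul, zero_add, smul_eq_zero, or_iff_left hk₀0] at hst
    exact ⟨hs, hst⟩
  obtain ⟨φ, hφ⟩ := Forms.IsForm.exists_isom_of_sameGram Forms.isForm_symp hli hli'
    ⟨fun i j => by
      change Forms.sympB m F (![g₁, k₀] i) (![g₁, k₀] j) = Forms.sympB m F (![e, a] i) (![e, a] j)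
      rw [sB, sB]
      fin_cases i <;> fin_cases j <;> simp [B_self, hea, hae, hgk, hkg],
    fun i => rfl⟩
  set s : Spm := (Forms.spEquiv m F).symm φ with hs
  have hse : s.1 *ᵥ e = g₁ := by rw [hs, Forms.spEquiv_symm_apply]; exact hφ 0
  have hsa : s.1 *ᵥ a = k₀ := by rw [hs, Forms.spEquiv_symm_apply]; exact hφ 1
  set v := s * u * s⁻¹ with hv
  have hv' : ∀ y, v.1 *ᵥ y = y + (B y k₀ + c * B y g₁) • g₁ + B y g₁ • k₀ := by
    intro y
    obtain ⟨z, rfl⟩ : ∃ z, s.1 *ᵥ z = y := ⟨_, sp_mulVec_inv s y⟩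
    rw [hv, sp_mul_mulVec, sp_mul_mulVec, sp_inv_mulVec, hu', Matrix.mulVec_add, Matrix.mulVec_add,
      Matrix.mulVec_smul, Matrix.mulVec_smul, hse, hsa]
    conv_rhs => rw [← hse, ← hsa, sp_B, sp_B, hse, hsa]
  -- the product minus one
  set D : Vm → Vm := fun y => (u * v).1 *ᵥ y - y with hD
  have hDy : ∀ y, D y = (B y k₀ + c * B y g₁) • g₁ + B y g₁ • k₀ +
      (B y k₀ + c * B y g₁ + (B y a + c * B y e)) • e + B y e • a := fun y => by
    simp only [hD, sp_mul_mulVec, hv', hu', B_add_left, B_smul_left, hka, hke, hg₁e, hg₁a]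
    module
  have hlin : ∀ (p q : F) (v w : Vm), D (p • v + q • w) = p • D v + q • D w := fun p q v w => by
    simp only [hDy, B_add_left, B_smul_left]; module
  have hDe : D e = 0 := by simp [hDy, hek, hg₁e', hea, B_self]
  have hDa : D a = c • g₁ + c • e + (1 : F) • k₀ := by
    rw [hDy, hak', hg₁a', hae, B_self]; module
  have hDk : D k₀ = 0 := by simp [hDy, B_self, hkg, hka, hke]
  have hDg : D g₁ = e := by simp [hDy, hgk, B_self, hg₁a, hg₁e]
  have hlin4 : ∀ (p q r t : F), D (p • g₁ + q • k₀ + r • e + t • a) =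
      p • e + t • (c • g₁ + c • e + (1 : F) • k₀) := by
    intro p q r t
    rw [show p • g₁ + q • k₀ + r • e + t • a =
      (1 : F) • (p • g₁ + q • k₀) + (1 : F) • (r • e + t • a) by module, hlin, hlin, hlin, hDg,
      hDk, hDe, hDa]
    module
  have hD4 : ∀ y, D (D (D (D y))) = 0 := by
    intro y
    rw [hDy y, hlin4,
      show (B y k₀ + c * B y g₁) • e + B y e • (c • g₁ + c • e + (1 : F) • k₀) =
        (B y e * c) • g₁ + (B y e) • k₀ + (B y k₀ + c * B y g₁ + B y e * c) • e + (0 : F) • a by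
        module, hlin4,
      show (B y e * c) • e + (0 : F) • (c • g₁ + c • e + (1 : F) • k₀) =
        (0 : F) • g₁ + (0 : F) • k₀ + (B y e * c) • e + (0 : F) • a by module, hlin4]
    module
  have hpow : (u * v) ^ 4 = 1 := by
    refine Subtype.ext ?_
    have hDm : ∀ y, ((u * v).1 - 1) *ᵥ y = D y := fun y => by
      rw [Matrix.sub_mulVec, Matrix.one_mulVec]
    have h4 : ((u * v).1 - 1) ^ 4 = 0 := Forms.matrix_ext_mulVec fun y => by
      rw [show (4 : ℕ) = 3 + 1 from rfl, pow_succ, ← Matrix.mulVec_mulVec, hDm, pow_succ,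
        ← Matrix.mulVec_mulVec, hDm, pow_succ, ← Matrix.mulVec_mulVec, hDm, pow_one, hDm, hD4,
        Matrix.zero_mulVec]
    haveI : Nonempty (Fin m ⊕ Fin m) := ⟨Sum.inl ⟨0, by omega⟩⟩
    rw [show (4 : ℕ) = 2 ^ 2 from rfl, sub_pow_char_pow_of_commute _ _ (Commute.one_right _),
      one_pow, sub_eq_zero] at h4
    exact (SubmonoidClass.coe_pow _ 4).trans h4
  have hc' : Commute u v := commute_of_mk (hodd (QuotientGroup.mk s) (by
    show ((QuotientGroup.mk u : Cfsg.PSp m F) * (QuotientGroup.mk v)) ^ 4 = 1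
    rw [← QuotientGroup.mk_mul, ← QuotientGroup.mk_pow, hpow, QuotientGroup.mk_one]))
  have hkf : B k₀ f₁ = 0 := by simpa [Φ] using congrFun hk₀ 2
  have hfk : B f₁ k₀ = 0 := by rw [B_swap, hkf, neg_zero]
  have h1 : u.1 *ᵥ (v.1 *ᵥ f₁) = v.1 *ᵥ (u.1 *ᵥ f₁) := by
    rw [← sp_mul_mulVec, ← sp_mul_mulVec, hc'.eq]
  have e1 : v.1 *ᵥ f₁ = f₁ := by rw [hv', hfk, hfg]; simp
  have e2 : u.1 *ᵥ f₁ = f₁ + c • e + a := by rw [hu', hf₁a, hf₁e]; simp
  rw [e1, e2, hv' (f₁ + c • e + a)] at h1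
  simp only [B_add_left, B_smul_left, hfk, hfg, hek, hg₁e', hak', hg₁a', mul_zero, add_zero,
    zero_add, mul_one, one_smul] at h1
  have h2 : c • g₁ + k₀ = 0 := by
    rw [add_assoc (f₁ + c • e + a), left_eq_add] at h1
    exact h1
  have h3 := congrArg (fun z => B z a) h2
  simp only [B_add_left, B_smul_left, hg₁a, hka, B_zero_left, mul_one, add_zero] at h3
  rw [h3, zero_smul, zero_add] at h2
  exact hk₀0 h2

theorem isTv_map_two (hm : 3 ≤ m) (β : MulAut (Cfsg.PSp m F)) {v : Vm} {x : Cfsg.PSp m F}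
    (h : IsTvOf v x) : ∃ w, IsTvOf w (β x) := by
  have := Fact.mk Nat.prime_two
  refine centralP_isTv_two hm (centralP_map β ?_) (isOddTransp_map β (isTvOf_oddTransp h))
  obtain ⟨hv, c, hc, hcx⟩ := h
  obtain ⟨Q₀⟩ : Nonempty (Sylow 2 Spm) := Sylow.nonempty
  obtain ⟨e, he, hfix, hrad⟩ := exists_fixed (p := 2) (by omega) Q₀
  have hbase : CentralP 2 (QuotientGroup.mk (T e c) : Cfsg.PSp m F) := by
    refine ⟨fun h1 => T_ne_one he hc (mk_inj (h1.trans (QuotientGroup.mk_one _).symm)),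
      Q₀.mapSurjective (QuotientGroup.mk'_surjective _), ⟨_, hrad (T_mem_radical e c), rfl⟩, ?_⟩
    rintro _ ⟨w, hw, rfl⟩
    refine Commute.map ?_ (QuotientGroup.mk' (Subgroup.center Spm))
    refine (mul_inv_eq_iff_eq_mul.mp ?_).symm
    rw [T_conj, hfix w hw]
  obtain ⟨t, -, ht⟩ := Forms.exists_mem_transitive Forms.sympB_isAlt ⊤
    (fun z _ c _ => Subgroup.mem_top _) Forms.isForm_symp he hv
  set g := (Forms.spEquiv m F).symm t with hg
  have hgv : g.1 *ᵥ e = v := by rw [hg, Forms.spEquiv_symm_apply]; exact ht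
  have := centralP_map (MulAut.conj (QuotientGroup.mk g : Cfsg.PSp m F)) hbase
  rw [MulAut.conj_apply, ← QuotientGroup.mk_inv, ← QuotientGroup.mk_mul, ← QuotientGroup.mk_mul,
    T_conj, hgv, hcx] at this
  exact this

theorem tvGood_two (hm : 3 ≤ m) : TvGood m F :=
  ⟨fun β _ _ h => isTv_map_two hm β h, fun h h' => par_two h h',
    fun hx hy => commute_iff_two hx hy⟩

end Fin

/-- Every automorphism is induced by a semilinear similarity. -/
theorem exists_decomp {m : ℕ} {F : Type u} [Field F] [Fintype F] (p : ℕ) [Fact p.Prime] [CharP F p]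
    (hm : 2 ≤ m) (h4 : m = 2 → p ≠ 2) (β : MulAut (Cfsg.PSp m F)) :
    ∃ (g : Cfsg.GSp m F) (σ : F ≃+* F), β = A m F g * Fd m F σ := by
  by_cases hp : p = 2
  · subst hp
    exact exists_decomp_of_good (tvGood_two (by
      by_contra h; exact h4 (by omega) rfl)) hm β
  · exact exists_decomp_odd (p := p) hp hm β

end Cfsg.Agent.KnownB.Proj.Symp
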