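import Cfsg.Agent.KnownB.Proj.Symp.Transv
import Cfsg.Agent.KnownB.Proj.Perp

/-! Automorphisms of `PSp_{2m}(q)`, `q` odd, `m ≥ 2`. -/

set_option autoImplicit false

namespace Cfsg.Agent.KnownB.Proj.Symp

open Matrix

universe u

variable {m : ℕ} {F : Type u} [Field F]

local notation "Vm" => (Fin m ⊕ Fin m → F)
local notation "Mm" => Matrix (Fin m ⊕ Fin m) (Fin m ⊕ Fin m) F
local notation "GLm" => Matrix.GeneralLinearGroup (Fin m ⊕ Fin m) F
local notation "Spm" => Matrix.symplecticGroup (Fin m) F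
local notation "B" => Cfsg.sympForm m F

theorem exists_common {u v : Vm} (hu : u ≠ 0) (hv : v ≠ 0) : ∃ w, B u w ≠ 0 ∧ B v w ≠ 0 := by
  obtain ⟨a, ha⟩ := exists_B_ne hu
  obtain ⟨b, hb⟩ := exists_B_ne hv
  replace ha : B u a ≠ 0 := by rw [B_swap]; exact neg_ne_zero.mpr ha
  replace hb : B v b ≠ 0 := by rw [B_swap]; exact neg_ne_zero.mpr hb
  by_cases h1 : B v a = 0
  · by_cases h2 : B u b = 0
    · exact ⟨a + b, by rwa [B_add_right, h2, add_zero], by rwa [B_add_right, h1, zero_add]⟩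
    · exact ⟨b, h2, hb⟩
  · exact ⟨a, ha, h1⟩

theorem gl_mulVec_ne (g : GLm) {x : Vm} (hx : x ≠ 0) : (g : Mm) *ᵥ x ≠ 0 := fun h => hx (by
  have := congrArg (fun y => ((g⁻¹ : GLm) : Mm) *ᵥ y) h
  simpa [Matrix.mulVec_mulVec] using this)

theorem IsTvOf.map_A (g : Cfsg.GSp m F) {v : Vm} {x : Cfsg.PSp m F} (h : IsTvOf v x) :
    IsTvOf ((g.1 : Mm) *ᵥ v) (A m F g x) := by
  obtain ⟨hv, c, hc, rfl⟩ := h
  obtain ⟨μ, hμ⟩ := g.2
  refine ⟨gl_mulVec_ne g.1 hv, c / (μ : F), div_ne_zero hc μ.ne_zero, ?_⟩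
  show QuotientGroup.mk _ = QuotientGroup.mk (conjSp g (T v c))
  refine congrArg QuotientGroup.mk (sp_ext fun y => ?_)
  show _ = ((g.1 : Mm) * (T v c).1 * ((g.1⁻¹ : GLm) : Mm)) *ᵥ y
  obtain ⟨x, rfl⟩ : ∃ x, (g.1 : Mm) *ᵥ x = y :=
    ⟨((g.1⁻¹ : GLm) : Mm) *ᵥ y, by simp [Matrix.mulVec_mulVec]⟩
  rw [T_mulVec, hμ, ← Matrix.mulVec_mulVec, ← Matrix.mulVec_mulVec]
  rw [show ((g.1⁻¹ : GLm) : Mm) *ᵥ ((g.1 : Mm) *ᵥ x) = x by simp [Matrix.mulVec_mulVec],
    T_mulVec, Matrix.mulVec_add, Matrix.mulVec_smul, div_mul_eq_mul_div, mul_left_comm,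
    mul_div_assoc, mul_div_cancel₀ _ μ.ne_zero]

theorem IsTvOf.map_Fd (σ : F ≃+* F) {v : Vm} {x : Cfsg.PSp m F} (h : IsTvOf v x) :
    IsTvOf (⇑σ ∘ v) (Fd m F σ x) := by
  obtain ⟨hv, c, hc, rfl⟩ := h
  refine ⟨fun h => hv (funext fun i => σ.injective (by simpa using congrFun h i)), σ c,
    (map_ne_zero σ).mpr hc, ?_⟩
  show QuotientGroup.mk _ = QuotientGroup.mk (fieldSp σ (T v c))
  refine congrArg QuotientGroup.mk (sp_ext fun y => ?_)
  show _ = (T v c).1.map σ *ᵥ y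
  obtain ⟨x, rfl⟩ : ∃ x, ⇑σ ∘ x = y := ⟨_, comp_symm σ y⟩
  rw [map_mulVec, T_mulVec, T_mulVec, sympForm_map]
  funext i
  simp

theorem IsTvOf.conj (s : Spm) {v : Vm} {x : Cfsg.PSp m F} (h : IsTvOf v x) :
    IsTvOf (s.1 *ᵥ v) ((QuotientGroup.mk s : Cfsg.PSp m F) * x * (QuotientGroup.mk s)⁻¹) := by
  obtain ⟨hv, c, hc, rfl⟩ := h
  refine ⟨sp_mulVec_ne s hv, c, hc, ?_⟩
  rw [← QuotientGroup.mk_inv, ← QuotientGroup.mk_mul, ← QuotientGroup.mk_mul, T_conj]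

theorem isTvOf_mk {v : Vm} (hv : v ≠ 0) : IsTvOf v (QuotientGroup.mk (T v 1) : Cfsg.PSp m F) :=
  ⟨hv, 1, one_ne_zero, rfl⟩

/-- A bilinear form vanishing with the symplectic form is a multiple of it. -/
theorem hasMult_of_perp (hm : 1 ≤ m) (G : GLm)
    (h : ∀ a b, B a b = 0 → B ((G : Mm) *ᵥ a) ((G : Mm) *ᵥ b) = 0) :
    G ∈ Cfsg.GSp m F := by
  classical
  set f := fun a b => B ((G : Mm) *ᵥ a) ((G : Mm) *ᵥ b) with hf
  have hlam : ∀ a, ∃ l : F, ∀ b, f a b = l * B a b := by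
    intro a
    by_cases ha : a = 0
    · exact ⟨0, fun b => by simp only [hf, ha, Matrix.mulVec_zero, zero_mul]; simp [← sB, -Forms.sympB_apply]⟩
    obtain ⟨x, hx⟩ := exists_B_ne ha
    replace hx : B a x ≠ 0 := by rw [B_swap]; exact neg_ne_zero.mpr hx
    refine ⟨f a x / B a x, fun b => ?_⟩
    have hb : B a (b - (B a b / B a x) • x) = 0 := by
      rw [B_sub_right, B_smul_right, div_mul_cancel₀ _ hx, sub_self]
    have h1 : f a (b - (B a b / B a x) • x) = 0 := h _ _ hb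
    simp only [hf, Matrix.mulVec_sub, Matrix.mulVec_smul, B_sub_right, B_smul_right] at h1
    simp only [hf]
    rw [sub_eq_zero.mp h1]
    ring
  choose l hl using hlam
  have hswap : ∀ a b, B a b ≠ 0 → l a = l b := by
    intro a b hab
    have h1 := hl a b
    have h2 := hl b a
    simp only [hf] at h1 h2
    rw [B_swap _ ((G : Mm) *ᵥ b), h2, B_swap b a, mul_neg, neg_neg] at h1
    exact (mul_right_cancel₀ hab h1).symm
  have hconst : ∀ a b, a ≠ 0 → b ≠ 0 → l a = l b := fun a b ha hb => by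
    obtain ⟨w, h1, h2⟩ := exists_common ha hb
    rw [hswap a w h1, hswap b w h2]
  obtain ⟨a₀, ha₀⟩ : ∃ a : Vm, a ≠ 0 :=
    ⟨Pi.single (Sum.inl ⟨0, hm⟩) 1, fun h0 => by simpa using congrFun h0 (Sum.inl ⟨0, hm⟩)⟩
  have hne : l a₀ ≠ 0 := by
    intro h0
    obtain ⟨x, hx⟩ := exists_B_ne (gl_mulVec_ne G ha₀)
    obtain ⟨y, rfl⟩ : ∃ y, (G : Mm) *ᵥ y = x :=
      ⟨((G⁻¹ : GLm) : Mm) *ᵥ x, by simp [Matrix.mulVec_mulVec]⟩
    refine hx ?_
    rw [B_swap, show B ((G : Mm) *ᵥ a₀) ((G : Mm) *ᵥ y) = l a₀ * B a₀ y from hl a₀ y, h0,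
      zero_mul, neg_zero]
  refine ⟨Units.mk0 _ hne, fun u v => ?_⟩
  show f u v = l a₀ * B u v
  by_cases hu : u = 0
  · simp only [hf, hu, Matrix.mulVec_zero]; simp [← sB, -Forms.sympB_apply]
  rw [hl, hconst u a₀ hu ha₀]

section Fin

variable [Fintype F] {p : ℕ} [Fact p.Prime] [CharP F p]

variable (m F) in
/-- The properties of transvections used to determine the automorphisms. -/
structure TvGood : Prop where
  map : ∀ (β : MulAut (Cfsg.PSp m F)) {v : Vm} {x : Cfsg.PSp m F}, IsTvOf v x →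
    ∃ w, IsTvOf w (β x)
  par : ∀ {v w : Vm} {x : Cfsg.PSp m F}, IsTvOf v x → IsTvOf w x → ∃ k : F, k ≠ 0 ∧ v = k • w
  comm : ∀ {v w : Vm} {x y : Cfsg.PSp m F}, IsTvOf v x → IsTvOf w y → (Commute x y ↔ B v w = 0)

omit [Fintype F] in
/-- Every automorphism is induced by a semilinear similarity, given the facts on transvections. -/
theorem exists_decomp_of_good [Finite F] (hT : TvGood m F) (hm : 2 ≤ m) (β : MulAut (Cfsg.PSp m F)) :
    ∃ (g : Cfsg.GSp m F) (σ : F ≃+* F), β = A m F g * Fd m F σ := by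
  classical
  have hm1 : 1 ≤ m := by omega
  have hex : ∀ v : Vm, ∃ w : Vm, v ≠ 0 → IsTvOf w (β (QuotientGroup.mk (T v 1))) := by
    intro v
    by_cases hv : v = 0
    · exact ⟨0, fun h => absurd hv h⟩
    · obtain ⟨w, hw⟩ := hT.map β (isTvOf_mk hv)
      exact ⟨w, fun _ => hw⟩
  choose g hg using hex
  have hperp : ∀ u z, u ≠ 0 → z ≠ 0 → (B u z = 0 ↔ B (g u) (g z) = 0) := by
    intro u z hu hz
    rw [← hT.comm (isTvOf_mk hu) (isTvOf_mk hz),
      ← hT.comm (hg u hu) (hg z hz), commute_map_iff β.injective]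
  have hB : (Forms.sympB m F).Nondegenerate := Forms.sympB_nondegenerate
  have hsurj : ∀ y, y ≠ 0 → ∃ x, x ≠ 0 ∧ ∃ c : F, c ≠ 0 ∧ g x = c • y := by
    intro y hy
    obtain ⟨x, hx⟩ := hT.map β⁻¹ (isTvOf_mk hy)
    refine ⟨x, hx.1, ?_⟩
    have hgx := (hg x hx.1).1
    have key : ∀ w, B y w = 0 ↔ B (g x) w = 0 := by
      intro w
      by_cases hw : w = 0
      · simp [hw, B_zero_right]
      obtain ⟨w', hw'⟩ := hT.map β⁻¹ (isTvOf_mk hw)
      rw [← hT.comm (isTvOf_mk hy) (isTvOf_mk hw),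
        ← hT.comm (hg x hx.1) (isTvOf_mk hw),
        ← commute_map_iff β⁻¹.injective, hT.comm hx hw',
        ← hT.comm (isTvOf_mk hx.1) hw', ← commute_map_iff β.injective,
        MulAut.apply_inv_self]
    obtain ⟨a, b, hab⟩ := (mem_pair_iff_perp (Forms.sympB m F) hB y y (g x)).mpr fun z h1 _ => by
      rw [sB] at h1 ⊢
      exact (key z).mp h1
    refine ⟨a + b, fun h0 => hgx (by rw [← hab, ← add_smul, h0, zero_smul]), ?_⟩
    rw [← hab, add_smul]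
  have hcol : Collin g := collin_of_perp (Forms.sympB m F) hB g (fun v hv => (hg v hv).1)
    (fun u z hu hz => by rw [sB, sB]; exact hperp u z hu hz) hsurj
  obtain ⟨σ, G, hG⟩ := hcol.exists_semilinear (by simp; omega)
  have hmem : G ∈ Cfsg.GSp m F := by
    refine hasMult_of_perp hm1 G fun a b hab => ?_
    by_cases ha : a = 0
    · simp [ha, B_zero_left]
    by_cases hb : b = 0
    · simp [hb, B_zero_right]
    obtain ⟨u, rfl⟩ : ∃ u, ⇑σ ∘ u = a := ⟨_, comp_symm σ a⟩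
    obtain ⟨z, rfl⟩ : ∃ z, ⇑σ ∘ z = b := ⟨_, comp_symm σ b⟩
    have hu : u ≠ 0 := fun h => ha (funext fun i => by simp [h])
    have hz : z ≠ 0 := fun h => hb (funext fun i => by simp [h])
    obtain ⟨c, hc, ec⟩ := hG u hu
    obtain ⟨d, hd, ed⟩ := hG z hz
    rw [sympForm_map, map_eq_zero] at hab
    have h1 := (hperp u z hu hz).mp hab
    rw [ec, ed, B_smul_left, B_smul_right, mul_eq_zero, or_iff_right hc, mul_eq_zero,
      or_iff_right hd] at h1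
    exact h1
  refine ⟨⟨G, hmem⟩, σ, ?_⟩
  set γ := (A m F ⟨G, hmem⟩ * Fd m F σ)⁻¹ * β with hγ
  suffices hone : γ = 1 by
    rw [hγ, inv_mul_eq_one] at hone
    exact hone.symm
  have hpt : ∀ v, v ≠ 0 → IsTvOf v (γ (QuotientGroup.mk (T v 1))) := by
    intro v hv
    obtain ⟨w, hw⟩ := hT.map γ (isTvOf_mk hv)
    have h1 := (hw.map_Fd σ).map_A ⟨G, hmem⟩
    change IsTvOf _ ((A m F ⟨G, hmem⟩ * Fd m F σ * γ) (QuotientGroup.mk (T v 1))) at h1
    rw [show A m F ⟨G, hmem⟩ * Fd m F σ * γ = β by rw [hγ, mul_inv_cancel_left]] at h1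
    obtain ⟨k, hk, hkw⟩ := hT.par h1 (hg v hv)
    obtain ⟨c, hc, ec⟩ := hG v hv
    rw [ec, smul_smul] at hkw
    have h2 : (G : Mm) *ᵥ (⇑σ ∘ w) = (G : Mm) *ᵥ ((k * c) • ⇑σ ∘ v) := by
      rw [Matrix.mulVec_smul]; exact hkw
    have h3 := congrArg (fun y => ((G⁻¹ : GLm) : Mm) *ᵥ y) h2
    simp only [Matrix.mulVec_mulVec, Units.inv_mul, Matrix.one_mulVec] at h3
    have h4 : w = σ.symm (k * c) • v := funext fun i => σ.injective (by
      have := congrFun h3 i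
      simp only [Function.comp_apply, Pi.smul_apply, smul_eq_mul] at this
      simp [this])
    obtain ⟨hw0, e, he, hwe⟩ := hw
    refine ⟨hv, e * σ.symm (k * c) ^ 2, mul_ne_zero he (pow_ne_zero _ ?_), ?_⟩
    · exact (map_ne_zero σ.symm).mpr (mul_ne_zero hk hc)
    · rw [← T_smul, ← h4]; exact hwe
  refine autPSp_ext fun s => ?_
  rw [MulAut.one_apply]
  obtain ⟨s', hs'⟩ := QuotientGroup.mk_surjective (γ (QuotientGroup.mk s))
  have hline : ∀ v, v ≠ 0 → ∃ k : F, k ≠ 0 ∧ s'.1 *ᵥ v = k • s.1 *ᵥ v := by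
    intro v hv
    have h1 := (hpt v hv).conj s'
    rw [hs', ← map_inv, ← map_mul, ← map_mul, ← QuotientGroup.mk_inv, ← QuotientGroup.mk_mul,
      ← QuotientGroup.mk_mul, T_conj] at h1
    exact hT.par h1 (hpt _ (sp_mulVec_ne s hv))
  rw [← hs', pspMk_eq_iff]
  refine ⟨s'⁻¹ * s, ?_, by rw [mul_inv_cancel_left]⟩
  set z := s'⁻¹ * s
  have hz : ∀ v, v ≠ 0 → ∃ k : F, z.1 *ᵥ v = k • v := by
    intro v hv
    obtain ⟨k, hk, e⟩ := hline v hv
    refine ⟨k⁻¹, ?_⟩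
    rw [sp_mul_mulVec, show s.1 *ᵥ v = k⁻¹ • s'.1 *ᵥ v by rw [e, inv_smul_smul₀ hk],
      Matrix.mulVec_smul, sp_inv_mulVec]
  choose! k hk using hz
  have hrec : ∀ u w, B u w ≠ 0 → k u * k w = 1 := by
    intro u w h
    have hu : u ≠ 0 := fun h0 => h (by simp [h0, B_zero_left])
    have hw : w ≠ 0 := fun h0 => h (by simp [h0, B_zero_right])
    have h1 := sp_B z u w
    rw [hk u hu, hk w hw, B_smul_left, B_smul_right, ← mul_assoc] at h1
    exact mul_right_cancel₀ h (h1.trans (one_mul _).symm)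
  have hconst : ∀ u v, u ≠ 0 → v ≠ 0 → k u = k v := by
    intro u v hu hv
    obtain ⟨w, h1, h2⟩ := exists_common hu hv
    have e := (hrec u w h1).trans (hrec v w h2).symm
    exact mul_right_cancel₀ (fun h0 => zero_ne_one (α := F) (by
      have := hrec u w h1; rwa [h0, mul_zero] at this)) e
  obtain ⟨a₀, ha₀⟩ : ∃ a : Vm, a ≠ 0 :=
    ⟨Pi.single (Sum.inl ⟨0, hm1⟩) 1, fun h0 => by simpa using congrFun h0 (Sum.inl ⟨0, hm1⟩)⟩
  have hall : ∀ v, z.1 *ᵥ v = k a₀ • v := by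
    intro v
    by_cases hv : v = 0
    · simp [hv]
    rw [hk v hv, hconst v a₀ hv ha₀]
  rw [Subgroup.mem_center_iff]
  intro t
  refine sp_ext fun x => ?_
  rw [sp_mul_mulVec t z, sp_mul_mulVec z t, hall, hall, Matrix.mulVec_smul]

omit [Fintype F] in
theorem tvGood_odd [Finite F] (hp : p ≠ 2) (hm : 1 ≤ m) : TvGood m F := by
  haveI := Fintype.ofFinite F
  exact ⟨fun β _ _ h => isTv_map (p := p) hp hm β h, fun h h' => IsTvOf.par (p := p) hp h h',
    fun hx hy => commute_iff (p := p) hp hx hy⟩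

/-- Every automorphism is induced by a semilinear similarity, in odd characteristic. -/
theorem exists_decomp_odd (hp : p ≠ 2) (hm : 2 ≤ m) (β : MulAut (Cfsg.PSp m F)) :
    ∃ (g : Cfsg.GSp m F) (σ : F ≃+* F), β = A m F g * Fd m F σ :=
  exists_decomp_of_good (tvGood_odd (p := p) hp (by omega)) hm β

end Fin

end Cfsg.Agent.KnownB.Proj.Symp
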